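import Mathlib
import Cfsg.Prelude.Def_Sporadic_a
import Cfsg.Agent.Helper29.S3622A

set_option autoImplicit false

/-! The automorphism group of a projective plane of order 4 has order at most `168 * 720`. -/

namespace Cfsg.Agent.Helper29.PG2

open Cfsg.Agent.Helper29.S3622U Cfsg.Agent.Helper29.Plane4

variable {α : Type*} [Fintype α] [DecidableEq α] {L : Set (Finset α)}

theorem card_aut_le (hα : Fintype.card α = 21) (hL : Cfsg.IsSteinerSystem 2 5 L) :
    Nat.card ↥(Cfsg.setSystemAut L) ≤ 120960 := by
  classical
  obtain ⟨H, hH⟩ := exists_hyp hα hL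
  obtain ⟨f0, hf0⟩ : ∃ f0 : Fin 6 ↪ α, Finset.univ.map f0 = H := by
    refine ⟨(Finset.equivFinOfCardEq hH.six).symm.toEmbedding.trans
      (Function.Embedding.subtype _), ?_⟩
    rw [← Finset.map_map, Finset.map_univ_equiv, Finset.univ_eq_attach, Finset.attach_map_val]
  subst hf0
  let _ : Fintype ↥(Cfsg.setSystemAut L) := Fintype.ofFinite _
  rw [Nat.card_eq_fintype_card, ← Finset.card_univ]
  set YF : Finset (Fin 6 ↪ α) :=
    (Finset.univ : Finset (Fin 6 ↪ α)).filter (fun f => Finset.univ.map f ∈ Ind L 6) with hYF
  have hYcard : YF.card = 120960 := by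
    rw [hYF, Finset.card_eq_sum_card_fiberwise (f := fun f => Finset.univ.map f) (t := Ind L 6)
      (by
        intro f hf
        rw [Finset.mem_coe, Finset.mem_filter] at hf
        exact hf.2)]
    rw [Finset.sum_const_nat (m := 720), Ind_six hα hL]
    intro b hb
    rw [Finset.filter_filter]
    have e2 : (Finset.univ.filter fun f : Fin 6 ↪ α =>
        Finset.univ.map f ∈ Ind L 6 ∧ Finset.univ.map f = b)
        = Finset.univ.filter (fun f => Finset.univ.map f = b) := by
      ext f
      simp only [Finset.mem_filter, Finset.mem_univ, true_and]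
      constructor
      · exact fun h => h.2
      · intro h
        exact ⟨h ▸ hb, h⟩
    rw [e2, card_emb_fiber b (mem_Ind.1 hb).1]
  rw [← hYcard]
  apply Finset.card_le_card_of_injOn
    (fun g : ↥(Cfsg.setSystemAut L) => f0.trans (g : Equiv.Perm α).toEmbedding)
  · intro g _
    rw [hYF, Finset.mem_coe, Finset.mem_filter]
    refine ⟨Finset.mem_univ _, ?_⟩
    have himg : Finset.univ.map (f0.trans (g : Equiv.Perm α).toEmbedding)
        = (Finset.univ.map f0).image (g : Equiv.Perm α) := by
      rw [← Finset.map_map, Finset.map_eq_image]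
      rfl
    rw [himg, mem_Ind]
    refine ⟨?_, ?_⟩
    · rw [Finset.card_image_of_injective _ (g : Equiv.Perm α).injective]
      exact hH.six
    · intro l hl
      have hl' : l.image (⇑((g : Equiv.Perm α)⁻¹)) ∈ L :=
        aut_image (Subgroup.inv_mem _ g.2) hl
      have e : l ∩ (Finset.univ.map f0).image (g : Equiv.Perm α)
          = (l.image (⇑((g : Equiv.Perm α)⁻¹)) ∩ Finset.univ.map f0).image
              (g : Equiv.Perm α) := by
        rw [Finset.image_inter _ _ (g : Equiv.Perm α).injective, Finset.image_image]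
        congr 1
        have : (⇑(g : Equiv.Perm α) ∘ ⇑((g : Equiv.Perm α)⁻¹)) = id := by
          funext x
          simp
        rw [this, Finset.image_id]
      rw [e, Finset.card_image_of_injective _ (g : Equiv.Perm α).injective]
      exact hH.ind _ hl'
  · intro g _ g' _ hgg'
    have h2 : ∀ i, (g : Equiv.Perm α) (f0 i) = (g' : Equiv.Perm α) (f0 i) := by
      intro i
      have := congrArg (fun s : Fin 6 ↪ α => s i) hgg'
      exact this
    have hk : ∀ p, ((g' : Equiv.Perm α)⁻¹ * (g : Equiv.Perm α)) p = p := by
      apply eq_of_fix hH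
      · intro c hc
        exact aut_image (Subgroup.mul_mem _ (Subgroup.inv_mem _ g'.2) g.2) hc
      · intro x hx
        obtain ⟨i, _, rfl⟩ := Finset.mem_map.1 hx
        rw [Equiv.Perm.mul_apply, h2]
        exact (g' : Equiv.Perm α).symm_apply_apply _
    apply Subtype.ext
    ext p
    have := hk p
    rw [Equiv.Perm.mul_apply, Equiv.Perm.inv_def, Equiv.symm_apply_eq] at this
    exact this

end Cfsg.Agent.Helper29.PG2
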