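import Mathlib
import Cfsg.Prelude.Def_Sporadic_a
import Cfsg.Agent.Helper29.S3622A

set_option autoImplicit false

/-! Derived designs of Steiner systems at a set of points. -/

namespace Cfsg.Agent.Helper29.PG2

open Cfsg.Agent.Helper29.S3622U

variable {α : Type*} [DecidableEq α]

/-- the derived design at a set `I` -/
def derived (B : Set (Finset α)) (I : Finset α) : Set (Finset {x : α // x ∉ I}) :=
  {c | c.map (Function.Embedding.subtype _) ∪ I ∈ B}

omit [DecidableEq α] in
theorem disjoint_map_val (I : Finset α) (c : Finset {x : α // x ∉ I}) :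
    Disjoint (c.map (Function.Embedding.subtype _)) I := by
  rw [Finset.disjoint_left]
  intro x hx
  obtain ⟨y, _, rfl⟩ := Finset.mem_map.1 hx
  exact y.2

theorem card_map_union (I : Finset α) (c : Finset {x : α // x ∉ I}) :
    (c.map (Function.Embedding.subtype _) ∪ I).card = c.card + I.card := by
  rw [Finset.card_union_of_disjoint (disjoint_map_val I c), Finset.card_map]

theorem subtype_map_union (I : Finset α) (c : Finset {x : α // x ∉ I}) :
    (c.map (Function.Embedding.subtype _) ∪ I).subtype (fun x => x ∉ I) = c := by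
  ext y
  rw [Finset.mem_subtype, Finset.mem_union, Finset.mem_map]
  constructor
  · rintro (⟨z, hz, hzy⟩ | h)
    · have : z = y := Subtype.ext hzy
      rw [← this]
      exact hz
    · exact absurd h y.2
  · intro hy
    exact Or.inl ⟨y, hy, rfl⟩

theorem map_subtype_union {I b : Finset α} (hIb : I ⊆ b) :
    (b.subtype (fun x => x ∉ I)).map (Function.Embedding.subtype _) ∪ I = b := by
  ext x
  rw [Finset.mem_union, Finset.mem_map]
  constructor
  · rintro (⟨z, hz, rfl⟩ | h)
    · exact Finset.mem_subtype.1 hz
    · exact hIb h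
  · intro hx
    by_cases hxI : x ∈ I
    · exact Or.inr hxI
    · exact Or.inl ⟨⟨x, hxI⟩, Finset.mem_subtype.2 hx, rfl⟩

theorem derived_steiner {t k i : ℕ} {B : Set (Finset α)}
    (hB : Cfsg.IsSteinerSystem (t + i) (k + i) B) {I : Finset α} (hI : I.card = i) :
    Cfsg.IsSteinerSystem t k (derived B I) := by
  constructor
  · intro c hc
    have h1 := hB.1 _ hc
    rw [card_map_union, hI] at h1
    omega
  · intro s hs
    obtain ⟨b, ⟨hb, hsb⟩, huniq⟩ := hB.2 (s.map (Function.Embedding.subtype _) ∪ I)
      (by rw [card_map_union, hs, hI])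
    have hIb : I ⊆ b := fun x hx => hsb (Finset.mem_union_right _ hx)
    refine ⟨b.subtype (fun x => x ∉ I), ⟨?_, ?_⟩, ?_⟩
    · show (b.subtype (fun x => x ∉ I)).map (Function.Embedding.subtype _) ∪ I ∈ B
      rw [map_subtype_union hIb]
      exact hb
    · intro y hy
      rw [Finset.mem_subtype]
      exact hsb (Finset.mem_union_left _ (Finset.mem_map_of_mem _ hy))
    · rintro c ⟨hc, hsc⟩
      have : c.map (Function.Embedding.subtype _) ∪ I = b := by
        apply huniq
        refine ⟨hc, ?_⟩
        exact Finset.union_subset_union_left (Finset.map_subset_map.2 hsc)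
      rw [← this, subtype_map_union]

theorem card_compl_subtype [Fintype α] (I : Finset α) :
    Fintype.card {x : α // x ∉ I} = Fintype.card α - I.card := by
  rw [Fintype.card_subtype_compl, Fintype.card_coe]

/-- the restriction to the complement of `I` of a permutation fixing `I` pointwise -/
def restr (I : Finset α) (g : Equiv.Perm α) (hg : ∀ x ∈ I, g x = x) :
    Equiv.Perm {x : α // x ∉ I} :=
  g.subtypePerm (fun x => by
    constructor
    · intro h hx
      exact h (by rw [hg x hx]; exact hx)
    · intro h hx
      apply h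
      have := hg _ hx
      rw [g.injective this] at hx
      exact hx)

omit [DecidableEq α] in
theorem restr_apply (I : Finset α) (g : Equiv.Perm α) (hg : ∀ x ∈ I, g x = x)
    (y : {x : α // x ∉ I}) : (restr I g hg y : α) = g y.1 := rfl

theorem restr_mem_aut [Fintype α] {B : Set (Finset α)} (I : Finset α) (g : Equiv.Perm α)
    (hg : ∀ x ∈ I, g x = x) (hgB : g ∈ Cfsg.setSystemAut B) :
    restr I g hg ∈ Cfsg.setSystemAut (derived B I) := by
  apply mem_aut
  intro c hc
  show (c.image (restr I g hg)).map (Function.Embedding.subtype _) ∪ I ∈ B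
  have h1 := aut_image hgB hc
  have : (c.image (restr I g hg)).map (Function.Embedding.subtype _) ∪ I
      = (c.map (Function.Embedding.subtype _) ∪ I).image g := by
    rw [Finset.image_union]
    congr 1
    · ext x
      simp only [Finset.mem_map, Finset.mem_image, Function.Embedding.coe_subtype]
      constructor
      · rintro ⟨_, ⟨y, hy, rfl⟩, rfl⟩
        exact ⟨y.1, ⟨y, hy, rfl⟩, rfl⟩
      · rintro ⟨_, ⟨y, hy, rfl⟩, rfl⟩
        exact ⟨restr I g hg y, ⟨y, hy, rfl⟩, rfl⟩
    · ext x
      rw [Finset.mem_image]
      constructor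
      · intro hx
        exact ⟨x, hx, hg x hx⟩
      · rintro ⟨y, hy, rfl⟩
        rw [hg y hy]
        exact hy
  rw [this]
  exact h1

end Cfsg.Agent.Helper29.PG2
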