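import Mathlib
import Cfsg.Prelude.Def_Sporadic_a
import Cfsg.Agent.S0363
import Cfsg.Agent.S0364
import Cfsg.Agent.S0366
import Cfsg.Agent.S0369
import Cfsg.Agent.Helper29.PG2.Derived

set_option autoImplicit false

/-! The three-point stabiliser of `M24` acting on the derived plane of order 4. -/

namespace Cfsg.Agent.Helper29.PG2

open MulAction

/-- the three-point stabiliser -/
abbrev M21 (p q r : Cfsg.GolayPt) : Subgroup Cfsg.M24 :=
  stabilizer Cfsg.M24 p ⊓ stabilizer Cfsg.M24 q ⊓ stabilizer Cfsg.M24 r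

theorem card_M21 (p q r : Cfsg.GolayPt) (hpq : p ≠ q) (hpr : p ≠ r) (hqr : q ≠ r) :
    Nat.card (M21 p q r) = 20160 := by
  classical
  have h3 : IsPretransitive Cfsg.M24 (Fin 3 ↪ Cfsg.GolayPt) := by
    have h5 : IsPretransitive Cfsg.M24 (Fin 5 ↪ Cfsg.GolayPt) := Cfsg.Agent.S0366.result
    exact isMultiplyPretransitive_of_le (n := 5) (by norm_num)
      (by rw [Nat.card_eq_fintype_card]; decide)
  have hinj : Function.Injective ![p, q, r] := by
    intro i j hij
    fin_cases i <;> fin_cases j <;> first | rfl | (exfalso; simp at hij; tauto)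
  let x0 : Fin 3 ↪ Cfsg.GolayPt := ⟨![p, q, r], hinj⟩
  have hst : stabilizer Cfsg.M24 x0 = M21 p q r := by
    ext g
    simp only [mem_stabilizer_iff, Subgroup.mem_inf]
    constructor
    · intro h
      have := fun i => congrArg (fun f : Fin 3 ↪ Cfsg.GolayPt => f i) h
      exact ⟨⟨this 0, this 1⟩, this 2⟩
    · rintro ⟨⟨h0, h1⟩, h2⟩
      apply DFunLike.ext
      intro i
      fin_cases i
      · exact h0
      · exact h1
      · exact h2
  have hidx : (stabilizer Cfsg.M24 x0).index = Nat.card (Fin 3 ↪ Cfsg.GolayPt) :=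
    @index_stabilizer_of_transitive _ _ _ _ x0 h3
  have hc : Nat.card (Fin 3 ↪ Cfsg.GolayPt) = 12144 := by
    rw [Nat.card_eq_fintype_card, Fintype.card_embedding_eq]
    rfl
  have := Subgroup.card_mul_index (stabilizer Cfsg.M24 x0)
  rw [hidx, hc, hst, Cfsg.Agent.S0364.result] at this
  omega

theorem M21_fix {p q r : Cfsg.GolayPt} (g : M21 p q r) :
    ∀ x ∈ ({p, q, r} : Finset Cfsg.GolayPt),
      ((g : Cfsg.M24) : Equiv.Perm Cfsg.GolayPt) x = x := by
  intro x hx
  have hg := g.2
  simp only [Subgroup.mem_inf, mem_stabilizer_iff] at hg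
  simp only [Finset.mem_insert, Finset.mem_singleton] at hx
  rcases hx with rfl | rfl | rfl
  · exact hg.1.1
  · exact hg.1.2
  · exact hg.2

/-- the action of the three-point stabiliser on the derived design -/
noncomputable def M21Hom (p q r : Cfsg.GolayPt) :
    M21 p q r →* Cfsg.setSystemAut (derived Cfsg.octads ({p, q, r} : Finset Cfsg.GolayPt)) where
  toFun g := ⟨restr _ ((g : Cfsg.M24) : Equiv.Perm Cfsg.GolayPt) (M21_fix g),
    restr_mem_aut _ _ _ (by rw [← Cfsg.Agent.S0369.result]; exact (g : Cfsg.M24).2)⟩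
  map_one' := by
    apply Subtype.ext
    ext y
    rfl
  map_mul' a b := by
    apply Subtype.ext
    ext y
    rfl

theorem M21Hom_injective (p q r : Cfsg.GolayPt) : Function.Injective (M21Hom p q r) := by
  intro a b h
  apply Subtype.ext
  apply Subtype.ext
  apply Equiv.ext
  intro x
  by_cases hx : x ∈ ({p, q, r} : Finset Cfsg.GolayPt)
  · rw [M21_fix a x hx, M21_fix b x hx]
  · have := congrArg (fun s : Cfsg.setSystemAut
        (derived Cfsg.octads ({p, q, r} : Finset Cfsg.GolayPt)) =>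
        (((s : Equiv.Perm _) ⟨x, hx⟩ : {x : Cfsg.GolayPt // x ∉ ({p, q, r} : Finset Cfsg.GolayPt)})
          : Cfsg.GolayPt)) h
    exact this

theorem card_Y {p q r : Cfsg.GolayPt} (hpq : p ≠ q) (hpr : p ≠ r) (hqr : q ≠ r) :
    Fintype.card {x : Cfsg.GolayPt // x ∉ ({p, q, r} : Finset Cfsg.GolayPt)} = 21 := by
  rw [card_compl_subtype, Finset.card_insert_of_notMem (by simp [hpq, hpr]),
    Finset.card_insert_of_notMem (by simp [hqr]), Finset.card_singleton]
  rfl

theorem steiner_Y {p q r : Cfsg.GolayPt} (hpq : p ≠ q) (hpr : p ≠ r) (hqr : q ≠ r) :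
    Cfsg.IsSteinerSystem 2 5 (derived Cfsg.octads ({p, q, r} : Finset Cfsg.GolayPt)) := by
  apply derived_steiner (i := 3) (show Cfsg.IsSteinerSystem (2 + 3) (5 + 3) Cfsg.octads from
    Cfsg.Agent.S0363.result)
  rw [Finset.card_insert_of_notMem (by simp [hpq, hpr]),
    Finset.card_insert_of_notMem (by simp [hqr]), Finset.card_singleton]

end Cfsg.Agent.Helper29.PG2
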