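import Mathlib
import Cfsg.Prelude.Def_Sporadic_a
import Cfsg.Agent.Helper29.S3622A

set_option autoImplicit false

/-! The projective plane over a field `F` as a set system, and the action of `PSL(3, F)`. -/

namespace Cfsg.Agent.Helper29.PG2

open Cfsg.Agent.Helper29.S3622U

open scoped LinearAlgebra.Projectivization

variable {F : Type*} [Field F]

section lines

variable [Fintype (ℙ F (Fin 3 → F))]

open Classical in
/-- the points on the line given by a subspace -/
noncomputable def lineOf (U : Submodule F (Fin 3 → F)) : Finset (ℙ F (Fin 3 → F)) :=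
  Finset.univ.filter (fun x => x.submodule ≤ U)

theorem mem_lineOf {U : Submodule F (Fin 3 → F)} {x : ℙ F (Fin 3 → F)} :
    x ∈ lineOf U ↔ x.submodule ≤ U := by
  simp [lineOf]

/-- the lines of the projective plane -/
def lines : Set (Finset (ℙ F (Fin 3 → F))) :=
  {l | ∃ U : Submodule F (Fin 3 → F), Module.finrank F U = 2 ∧ l = lineOf U}

variable [Fintype F]

theorem card_lineOf {U : Submodule F (Fin 3 → F)} (hU : Module.finrank F U = 2) :
    (lineOf U).card = Fintype.card F + 1 := by
  classical
  haveI : Fintype (ℙ F U) := Fintype.ofFinite _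
  have hinj := Projectivization.map_injective (σ := RingHom.id F) (τ := RingHom.id F) U.subtype
    (Submodule.injective_subtype U)
  have himg : lineOf U = Finset.univ.image
      (Projectivization.map U.subtype (Submodule.injective_subtype U)) := by
    ext x
    rw [mem_lineOf, Finset.mem_image]
    constructor
    · intro hx
      induction x using Projectivization.ind with | _ v hv =>
      rw [Projectivization.submodule_mk, Submodule.span_singleton_le_iff_mem] at hx
      refine ⟨Projectivization.mk F (⟨v, hx⟩ : U) (fun e => hv (congrArg Subtype.val e)),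
        Finset.mem_univ _, ?_⟩
      rw [Projectivization.map_mk]
      rfl
    · rintro ⟨y, -, rfl⟩
      induction y using Projectivization.ind with | _ v hv =>
      rw [Projectivization.map_mk, Projectivization.submodule_mk,
        Submodule.span_singleton_le_iff_mem]
      exact v.2
  rw [himg, Finset.card_image_of_injective _ hinj, Finset.card_univ, Fintype.card_eq_nat_card,
    Projectivization.card_of_finrank_two F U hU, Nat.card_eq_fintype_card]

theorem card_points (hF : Fintype.card F = 4) : Fintype.card (ℙ F (Fin 3 → F)) = 21 := by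
  rw [Fintype.card_eq_nat_card, Projectivization.card_of_finrank F (Fin 3 → F) (n := 3) (by simp),
    Nat.card_eq_fintype_card, hF]
  rfl

theorem steiner_lines (hF : Fintype.card F = 4) :
    Cfsg.IsSteinerSystem 2 5 (lines (F := F)) := by
  classical
  constructor
  · rintro _ ⟨U, hU, rfl⟩
    rw [card_lineOf hU, hF]
  · intro s hs
    obtain ⟨x, y, hxy, rfl⟩ := Finset.card_eq_two.1 hs
    have hx := x.finrank_submodule
    have hy := y.finrank_submodule
    have h0 : Module.finrank F ↥(x.submodule ⊓ y.submodule) = 0 := by
      by_contra h0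
      have h1 : Module.finrank F ↥(x.submodule ⊓ y.submodule) ≤ 1 := by
        rw [← hx]
        exact Submodule.finrank_mono inf_le_left
      have h2 : Module.finrank F ↥(x.submodule ⊓ y.submodule) = 1 := by omega
      have e1 : x.submodule ⊓ y.submodule = x.submodule :=
        Submodule.eq_of_le_of_finrank_eq inf_le_left (h2.trans hx.symm)
      have e2 : x.submodule ⊓ y.submodule = y.submodule :=
        Submodule.eq_of_le_of_finrank_eq inf_le_right (h2.trans hy.symm)
      exact hxy (Projectivization.submodule_injective (e1.symm.trans e2))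
    have h1 : Module.finrank F ↥(x.submodule ⊔ y.submodule) = 2 := by
      have := Submodule.finrank_sup_add_finrank_inf_eq x.submodule y.submodule
      omega
    refine ⟨lineOf (x.submodule ⊔ y.submodule), ⟨⟨_, h1, rfl⟩, ?_⟩, ?_⟩
    · intro z hz
      rw [Finset.mem_insert, Finset.mem_singleton] at hz
      rcases hz with rfl | rfl
      · exact mem_lineOf.2 le_sup_left
      · exact mem_lineOf.2 le_sup_right
    · rintro _ ⟨⟨U, hU, rfl⟩, hsub⟩
      have hxU : x.submodule ≤ U := mem_lineOf.1 (hsub (by simp))
      have hyU : y.submodule ≤ U := mem_lineOf.1 (hsub (by simp))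
      have : x.submodule ⊔ y.submodule = U :=
        Submodule.eq_of_le_of_finrank_eq (sup_le hxU hyU) (h1.trans hU.symm)
      rw [this]

end lines

section action

variable [Fintype (ℙ F (Fin 3 → F))] [DecidableEq (ℙ F (Fin 3 → F))]

/-- a permutation of the points induced by a linear equivalence preserves the lines -/
theorem image_lineOf (f : (Fin 3 → F) ≃ₗ[F] (Fin 3 → F)) (σ : Equiv.Perm (ℙ F (Fin 3 → F)))
    (hσ : ∀ x, (σ x).submodule = x.submodule.map f.toLinearMap) (U : Submodule F (Fin 3 → F)) :
    (lineOf U).image σ = lineOf (U.map f.toLinearMap) := by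
  ext y
  rw [Finset.mem_image, mem_lineOf]
  constructor
  · rintro ⟨x, hx, rfl⟩
    rw [hσ]
    exact Submodule.map_mono (mem_lineOf.1 hx)
  · intro hy
    refine ⟨σ.symm y, mem_lineOf.2 ?_, σ.apply_symm_apply y⟩
    have := hσ (σ.symm y)
    rw [σ.apply_symm_apply] at this
    rw [this] at hy
    exact (Submodule.map_le_map_iff_of_injective f.injective _ _).1 hy

theorem mem_aut_of_linear (f : (Fin 3 → F) ≃ₗ[F] (Fin 3 → F))
    (σ : Equiv.Perm (ℙ F (Fin 3 → F)))
    (hσ : ∀ x, (σ x).submodule = x.submodule.map f.toLinearMap) :
    σ ∈ Cfsg.setSystemAut (lines (F := F)) := by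
  apply mem_aut
  rintro _ ⟨U, hU, rfl⟩
  refine ⟨U.map f.toLinearMap, ?_, image_lineOf f σ hσ U⟩
  rw [← hU]
  exact LinearEquiv.finrank_map_eq f U

theorem psl_mem_aut (g : Matrix.ProjectiveSpecialLinearGroup (Fin 3) F) :
    Projectivization.PSLAction.toPermHom g ∈ Cfsg.setSystemAut (lines (F := F)) := by
  obtain ⟨g, rfl⟩ := QuotientGroup.mk_surjective g
  apply mem_aut_of_linear (Matrix.SpecialLinearGroup.toLin' g)
  intro x
  induction x using Projectivization.ind with | _ v hv =>
  have : Projectivization.PSLAction.toPermHom (QuotientGroup.mk g) (Projectivization.mk F v hv)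
      = g • Projectivization.mk F v hv := rfl
  rw [this, Projectivization.smul_mk, Projectivization.submodule_mk, Projectivization.submodule_mk,
    Submodule.map_span, Set.image_singleton]
  rfl

/-- `PSL(3, F)` as a group of automorphisms of the plane -/
noncomputable def pslHom :
    Matrix.ProjectiveSpecialLinearGroup (Fin 3) F →* Cfsg.setSystemAut (lines (F := F)) :=
  Projectivization.PSLAction.toPermHom.codRestrict _ psl_mem_aut

theorem pslHom_injective : Function.Injective (pslHom (F := F)) := by
  intro a b h
  apply Matrix.ProjectiveSpecialLinearGroup.toPermHom_injective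
  exact congrArg Subtype.val h

end action

end Cfsg.Agent.Helper29.PG2
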